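import Cfsg.Agent.H448.FprMers.Wt
import Cfsg.Agent.H400.FprSharp

/-!
# The chain lemma

`x` acts on the Heisenberg group `Q`, `R = [Q, x] Z`. The conjugates of `R` under `C(x)` generate the simple group `G`
as soon as `Q` and a `C(x)`-conjugate of `Q` do, and `log₂ |G|` of them suffice: one of them moves any given
fixed point, so that its weight is at least `M`.
-/

set_option autoImplicit false
open Subgroup MulAction
open scoped Pointwise commutatorElement

namespace Cfsg.Agent.H448.FprMers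

open Cfsg.Agent.H398.FPR (UGood)
open Cfsg.Agent.H452.FprHeis (Heis wt one_le_wt stabilizer_ne_top')
open Cfsg.Agent.H400.Fpr

/-- `log₂ |G|` members of a generating family generate. -/
theorem exists_chain {G : Type*} [Group G] [Finite G] {ι : Type*} (F : ι → Subgroup G) (hF : ⨆ i, F i = ⊤)
    {m : ℕ} (hm : Nat.card G < 2 ^ m) : ∃ s : Finset ι, s.card ≤ m ∧ ⨆ i ∈ s, F i = ⊤ := by
  classical
  have h : ∀ j : ℕ, ∃ s : Finset ι, s.card ≤ j ∧ (⨆ i ∈ s, F i = ⊤ ∨ 2 ^ j ≤ Nat.card ↥(⨆ i ∈ s, F i)) := by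
    intro j
    induction j with
    | zero => exact ⟨∅, by simp, Or.inr (by rw [pow_zero]; exact Nat.card_pos)⟩
    | succ j ih =>
      obtain ⟨s, hs, h1⟩ := ih
      rcases h1 with h1 | h1
      · exact ⟨s, by omega, Or.inl h1⟩
      · by_cases h2 : ⨆ i ∈ s, F i = ⊤
        · exact ⟨s, by omega, Or.inl h2⟩
        · obtain ⟨i, hi⟩ : ∃ i, ¬ F i ≤ ⨆ i ∈ s, F i := by
            by_contra hcon
            push Not at hcon
            exact h2 (top_le_iff.1 (hF ▸ iSup_le hcon))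
          refine ⟨insert i s, (Finset.card_insert_le _ _).trans (by omega), Or.inr ?_⟩
          have h3 : ⨆ j ∈ s, F j ≤ ⨆ j ∈ insert i s, F j :=
            biSup_mono fun j hj => Finset.mem_insert_of_mem hj
          have h4 : ⨆ j ∈ s, F j ≠ ⨆ j ∈ insert i s, F j := by
            intro h5
            apply hi
            rw [h5]
            exact le_biSup (f := fun j => F j) (Finset.mem_insert_self i s)
          have h5 := H452.FprHeis.two_mul_card_le (lt_of_le_of_ne h3 h4)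
          rw [pow_succ]
          omega
  obtain ⟨s, hs, h1 | h1⟩ := h m
  · exact ⟨s, hs, h1⟩
  · have h2 := Subgroup.card_le_card_group (⨆ i ∈ s, F i)
    omega

variable {Y : Type*} [Group Y]

/-- The conjugates of `[Q, x] Z` under `C(x)` generate. -/
theorem iSup_cc_RQ [Finite Y] (hs : IsSimpleGroup Y) {r m : ℕ} {Z Q : Subgroup Y} {x n : Y} (H : HX r m Z Q x)
    (hgen : Q ⊔ cc n Q = ⊤) (hxn : n * x = x * n) (hx : ∃ w ∈ Q, x * w ≠ w * x) :
    ⨆ g : {g : Y // g * x = x * g}, cc (g : Y) (RQ H) = ⊤ := by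
  obtain ⟨L, hL⟩ : ∃ L : Subgroup Y, L = ⨆ g : {g : Y // g * x = x * g}, cc (g : Y) (RQ H) := ⟨_, rfl⟩
  rw [← hL]
  have h1 : ∀ c : Y, c * x = x * c → c ∈ normalizer (L : Set Y) := by
    have h2 : ∀ c : Y, c * x = x * c → cc c L ≤ L := by
      intro c hc
      rw [hL]
      unfold cc
      rw [Subgroup.map_iSup]
      refine iSup_le fun g => ?_
      have h3 : (c * g) * x = x * (c * g) := by rw [mul_assoc, g.2, ← mul_assoc, hc, mul_assoc]
      have h4 : cc c (cc (g : Y) (RQ H)) ≤ ⨆ g : {g : Y // g * x = x * g}, cc (g : Y) (RQ H) := by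
        rw [cc_cc]
        exact le_iSup (fun g : {g : Y // g * x = x * g} => cc (g : Y) (RQ H)) ⟨c * g, h3⟩
      exact h4
    intro c hc
    rw [norm_iff]
    intro y hy
    exact h2 c hc (conj_mem_cc hy)
  have hRL : RQ H ≤ L := by
    rw [hL]
    have h2 := le_iSup (fun g : {g : Y // g * x = x * g} => cc (g : Y) (RQ H)) ⟨1, by simp⟩
    simpa [cc_one] using h2
  have hQN : Q ≤ normalizer (L : Set Y) := by
    intro w hw
    obtain ⟨c, -, v, hv, hxc, rfl⟩ := H.decomp hw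
    exact mul_mem (h1 c hxc.symm) (le_normalizer (hRL hv))
  have htop : normalizer (L : Set Y) = ⊤ := by
    rw [eq_top_iff, ← hgen]
    refine sup_le hQN ?_
    refine cc_le (h1 n hxn) hQN
  have hnorm : L.Normal := normalizer_eq_top_iff.1 htop
  rcases hs.eq_bot_or_eq_top_of_normal L hnorm with h2 | h2
  · exfalso
    obtain ⟨v, hv, hvZ⟩ := H.exists_ne hx
    apply hvZ
    have h3 := hRL hv
    rw [h2, mem_bot] at h3
    rw [h3]
    exact one_mem _
  · exact h2

/-- The weighted count, with the weights `wt`. -/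
theorem wt_uGood {G : Type*} [Group G] [Finite G] {ι : Type*} [Fintype ι] [Nonempty ι] {x : G} {M : ℕ}
    (R Z : ι → Subgroup G) (h : ∀ i, Heis x (R i) (Z i))
    (hw : ∀ H : Subgroup G, H ≠ ⊤ → ∀ ω : G ⧸ H, x • ω = ω → ((M * Fintype.card ι : ℕ) : ℚ) ≤ ∑ i, wt (R i) (Z i) ω) :
    UGood 1 M x := by
  classical
  intro H hH
  have := Fintype.ofFinite (G ⧸ H)
  have h1 : ∑ i : ι, ∑ ω ∈ Finset.univ.filter (fun ω : G ⧸ H => x • ω = ω), wt (R i) (Z i) ω ≤
      ∑ _i : ι, (Fintype.card (G ⧸ H) : ℚ) :=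
    Finset.sum_le_sum fun i _ => (h i).sum_wt (X := G ⧸ H)
  rw [Finset.sum_comm, Finset.sum_const, nsmul_eq_mul] at h1
  have h2 : ∑ ω ∈ Finset.univ.filter (fun ω : G ⧸ H => x • ω = ω), ((M * Fintype.card ι : ℕ) : ℚ) ≤
      ∑ ω ∈ Finset.univ.filter (fun ω : G ⧸ H => x • ω = ω), ∑ i : ι, wt (R i) (Z i) ω :=
    Finset.sum_le_sum fun ω hω => hw H hH ω (Finset.mem_filter.1 hω).2
  rw [Finset.sum_const, nsmul_eq_mul] at h2
  have h4 : (Finset.univ.filter (fun ω : G ⧸ H => x • ω = ω)).card =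
      Nat.card (fixedBy (G ⧸ H) x) := by
    rw [Nat.card_coe_set_eq, Set.ncard_eq_toFinset_card']
    congr 1
    ext y
    simp [mem_fixedBy]
  rw [h4] at h2
  have h5 := h2.trans h1
  rw [Finset.card_univ, ← Nat.card_eq_fintype_card (α := G ⧸ H)] at h5
  have h6 : Nat.card (fixedBy (G ⧸ H) x) * (M * Fintype.card ι) ≤ Fintype.card ι * Nat.card (G ⧸ H) := by
    exact_mod_cast h5
  have h7 : 0 < Fintype.card ι := Fintype.card_pos
  apply Nat.le_of_mul_le_mul_left _ h7
  calc Fintype.card ι * (M * Nat.card (fixedBy (G ⧸ H) x)) =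
      Nat.card (fixedBy (G ⧸ H) x) * (M * Fintype.card ι) := by ring
    _ ≤ _ := h6
    _ = _ := by ring

/-- **The chain lemma.** -/
theorem chain_uGood [Finite Y] (hs : IsSimpleGroup Y) {r m p k M N M' : ℕ} (hr : r.Prime) (hp : p.Prime)
    (hm : m = p ^ k) {Z Q : Subgroup Y} {x n : Y} (H : HX r m Z Q x) (hgen : Q ⊔ cc n Q = ⊤)
    (hxn : n * x = x * n) (hx : ∃ w ∈ Q, x * w ≠ w * x)
    (hM : ∀ t : ℕ, t ≠ 0 → r ^ t ≡ 1 [MOD p] → M ≤ r ^ t) (hN : Nat.card Y < 2 ^ N)
    (hMN : M' * N + 1 ≤ M) : UGood 1 (M' + 1) x := by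
  classical
  obtain ⟨s, hs1, hs2⟩ := exists_chain _ (iSup_cc_RQ hs H hgen hxn hx) hN
  have hne : ∃ v ∈ RQ H, v ∉ Z := H.exists_ne hx
  have hW : ∀ i : {g : Y // g * x = x * g}, WH M 1 x (cc (i : Y) Z) (cc (i : Y) (RQ H)) := fun i =>
    WH.conj H hr hp hm hne hM (by
      rw [one_pow, one_mul]
      exact Nat.card_le_card_of_injective _ (Subgroup.inclusion_injective H.Z_le_RQ)) i.2
  have hs0 : s.Nonempty := by
    rw [Finset.nonempty_iff_ne_empty]
    rintro rfl
    have h1 : (⊥ : Subgroup Y) = ⊤ := by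
      rw [← hs2]
      simp
    have h2 := hs.toNontrivial
    exact bot_ne_top h1
  have : Nonempty s := hs0.to_subtype
  refine wt_uGood (ι := s) (fun i => cc (i : Y) (RQ H)) (fun i => cc (i : Y) Z) (fun i => (hW i).heis) ?_
  intro K hK ω hω
  have hst := stabilizer_ne_top' hK ω
  have w1 : ∀ i : s, 1 ≤ wt (cc ((i : {g : Y // g * x = x * g}) : Y) (RQ H)) (cc (i : Y) Z) ω := fun i =>
    one_le_wt (hW i).heis.le ω
  obtain ⟨j, hj⟩ : ∃ j : s, ¬ cc ((j : {g : Y // g * x = x * g}) : Y) (RQ H) ≤ stabilizer Y ω := by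
    by_contra hcon
    push Not at hcon
    apply hst
    rw [eq_top_iff, ← hs2]
    exact iSup₂_le fun i hi => hcon ⟨i, hi⟩
  have w2 := (hW j).M_le hω hj
  rw [← Finset.add_sum_erase _ _ (Finset.mem_univ j)]
  have h1 : ((Finset.univ.erase j).card : ℚ) ≤
      ∑ i ∈ Finset.univ.erase j, wt (cc ((i : {g : Y // g * x = x * g}) : Y) (RQ H)) (cc (i : Y) Z) ω := by
    have h2 := Finset.sum_le_sum (s := Finset.univ.erase j) fun i _ => w1 i
    rwa [Finset.sum_const, nsmul_eq_mul, mul_one] at h2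
  have h3 : (Finset.univ.erase j).card + 1 = Fintype.card s := by
    rw [Finset.card_erase_of_mem (Finset.mem_univ j), Finset.card_univ]
    exact Nat.succ_pred_eq_of_pos Fintype.card_pos
  have h4 : Fintype.card s ≤ N := by
    rw [Fintype.card_coe]; exact hs1
  have h5 : (M' + 1) * Fintype.card s ≤ M + (Finset.univ.erase j).card := by
    have h6 : M' * Fintype.card s ≤ M' * N := Nat.mul_le_mul_left _ h4
    rw [add_mul, one_mul]
    omega
  have h7 : (((M' + 1) * Fintype.card s : ℕ) : ℚ) ≤ (M : ℚ) + ((Finset.univ.erase j).card : ℚ) := by exact_mod_cast h5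
  linarith

end Cfsg.Agent.H448.FprMers
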