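import Cfsg.Agent.H448.FprMers.Chain
import Cfsg.Agent.H400.FprSharpRgd

/-!
# The chain lemma for groups with root groups
-/

set_option autoImplicit false
set_option linter.unusedSectionVars false
set_option linter.unusedVariables false
open Subgroup MulAction
open scoped Pointwise commutatorElement

namespace Cfsg.Agent.H448.FprMers

open Cfsg.Agent.H398.FPR (UGood)
open Cfsg.Agent.H400.Fpr
open CoxeterSystem Cfsg.Agent.ChevalleyStructure.CoxeterGeom Cfsg.Agent.Tits.Roots Cfsg.Agent.Tits.Core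
  Cfsg.Agent.Tits.Exchange Cfsg.Agent.Nodes.Reps Cfsg.Agent.Nodes.BNOf Cfsg.Agent.Nodes.StabComb
  Cfsg.Agent.Nodes.Bruhat Cfsg.Agent.Nodes.OppDec Cfsg.Agent.Nodes.PosPair Cfsg.Agent.Nodes.Coroot
  Cfsg.Agent.KFacts.RgdPar Cfsg.Agent.KFacts.RgdSL Cfsg.Agent.KFacts.RgdTI Cfsg.Agent.Nodes.LeviDec
  Cfsg.Agent.H400.TwoExc

variable {I W Y : Type*} [Fintype I] [DecidableEq I] [Group W] [Group Y] {M : CoxeterMatrix I}
  {cs : CoxeterSystem M W} {A : I → I → ℤ} {h : IsCartan M A} {p : ℕ} {T : Subgroup Y} {n : I → Y}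
  {X : (I → ℤ) → Subgroup Y}

/-- **The chain lemma for an element of the Levi factor of the Heisenberg parabolic.** -/
theorem chain_rgd {R : RGD cs h p T n X} {r : I → ℤ} [Finite W] [Finite Y] [Fact p.Prime] (H : Hs R r)
    (hs : IsSimpleGroup Y) (hcen : Subgroup.center Y = ⊥) (hG1 : Cfsg.Agent.Nodes.RGDLib.G1 cs h X = ⊤)
    {ℓ k M' M'' N : ℕ} (hℓ : ℓ.Prime) (hℓp : ℓ ≠ p) {x : Y} (hx : x ∈ L0 cs h X r)
    (hxk : x ^ ℓ ^ k = 1) (hx1 : x ≠ 1) (hQp : IsPGroup p (QQ cs h X r))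
    (hM : ∀ t : ℕ, t ≠ 0 → p ^ t ≡ 1 [MOD ℓ] → M'' ≤ p ^ t) (hN : Nat.card Y < 2 ^ N)
    (hMN : M' * N + 1 ≤ M'') : UGood 1 (M' + 1) x := by
  have hp : p.Prime := Fact.out
  have hr := H.L.root
  obtain ⟨m, hm, hmX⟩ := exists_refl R hr
  have hcjQ := cj_QQ (R := R) hr hmX
  have HXx := hx_rgd H hℓ hℓp hx hxk hQp
  have hgen := QQ_gen H hs hG1 hm hcjQ
  have hmx : m * x = x * m := (L0_comm H hx hm).symm
  exact chain_uGood hs hp hℓ rfl HXx hgen hmx (exists_moved H hcen hgen hx1 hmx) hM hN hMN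

end Cfsg.Agent.H448.FprMers
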