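import Cfsg.Agent.H448.FprMers.Ext7

/-!
# The weights for the group `2^{1+6}` with an element of order `7`
-/

set_option autoImplicit false
open Subgroup MulAction

namespace Cfsg.Agent.H448.FprMers

open Cfsg.Agent.H398.FPR Cfsg.Agent.H452.FprHeis

variable {E : Type*} [Field E] {G : Type*} [Group G]
variable {x : G} {a b : E → G} {Z : Subgroup G} {c : E}

namespace D7

variable (D : D7 x a b Z c)

include D

theorem card_R [Finite G] : Nat.card D.R = Nat.card E * Nat.card E * Nat.card Z := by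
  rw [← Nat.card_prod, ← Nat.card_prod]
  refine (Nat.card_congr (Equiv.ofBijective (fun y : (E × E) × Z =>
    (⟨a y.1.1 * b y.1.2 * y.2, y.1.1, y.1.2, y.2, y.2.2, rfl⟩ : D.R)) ⟨?_, ?_⟩)).symm
  · rintro ⟨⟨s, t⟩, z⟩ ⟨⟨s', t'⟩, z'⟩ h
    have h1 : a s * b t * z = a s' * b t' * z' := congrArg Subtype.val h
    obtain ⟨h2, h3⟩ := D.uniq2 z.2 z'.2 h1
    subst h2 h3
    have h4 : (z : G) = z' := mul_left_cancel h1
    rw [Subtype.ext h4]
  · rintro ⟨_, s, t, z, hz, rfl⟩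
    exact ⟨((s, t), ⟨z, hz⟩), rfl⟩

theorem card_inf_le [Finite G] [Finite E] {H : Subgroup G} {k : ℕ}
    (hk : Set.ncard {p : E × E | ∃ z ∈ Z, a p.1 * b p.2 * z ∈ H} ≤ k) :
    Nat.card (H ⊓ D.R : Subgroup G) ≤ k * Nat.card (H ⊓ Z : Subgroup G) := by
  classical
  obtain ⟨T, hT⟩ : ∃ T : Set (E × E), T = {p : E × E | ∃ z ∈ Z, a p.1 * b p.2 * z ∈ H} := ⟨_, rfl⟩
  rw [← hT] at hk
  have hTm : ∀ p ∈ T, ∃ z ∈ Z, a p.1 * b p.2 * z ∈ H := by
    intro p hp
    rw [hT] at hp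
    exact hp
  choose ζ hζ hζH using hTm
  have hform : ∀ g : (H ⊓ D.R : Subgroup G), ∃ p : E × E, ∃ z ∈ Z, (g : G) = a p.1 * b p.2 * z := by
    rintro ⟨g, hg, s, t, z, hz, h⟩
    exact ⟨(s, t), z, hz, h⟩
  choose p z hz hp using hform
  have hpT : ∀ g, p g ∈ T := by
    intro g
    rw [hT]
    refine ⟨z g, hz g, ?_⟩
    rw [← hp g]
    exact g.2.1
  have h1 : Nat.card (H ⊓ D.R : Subgroup G) ≤ Nat.card (T × (H ⊓ Z : Subgroup G)) := by
    refine Nat.card_le_card_of_injective (fun g => (⟨p g, hpT g⟩,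
      ⟨(g : G) * (a (p g).1 * b (p g).2 * ζ (p g) (hpT g))⁻¹, ?_, ?_⟩)) ?_
    · exact H.mul_mem g.2.1 (H.inv_mem (hζH _ _))
    · show (g : G) * (a (p g).1 * b (p g).2 * ζ (p g) (hpT g))⁻¹ ∈ Z
      have : (g : G) * (a (p g).1 * b (p g).2 * ζ (p g) (hpT g))⁻¹ =
          (a (p g).1 * b (p g).2 * z g) * (a (p g).1 * b (p g).2 * ζ (p g) (hpT g))⁻¹ := by
        rw [← hp g]
      rw [this]
      exact D.form_sub (hz g) (hζ _ _) rfl rfl
    · intro g g' h
      simp only [Prod.mk.injEq, Subtype.mk.injEq] at h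
      obtain ⟨h1, h2⟩ := h
      have h3 : a (p g).1 * b (p g).2 * ζ (p g) (hpT g) = a (p g').1 * b (p g').2 * ζ (p g') (hpT g') := by
        congr 2
        · rw [h1]
        · rw [h1]
      have h4 : (g : G) * (a (p g).1 * b (p g).2 * ζ (p g) (hpT g))⁻¹ =
          (g' : G) * (a (p g').1 * b (p g').2 * ζ (p g') (hpT g'))⁻¹ := congrArg Subtype.val h2
      rw [h3] at h4
      exact Subtype.ext (mul_right_cancel h4)
  rw [Nat.card_prod, Nat.card_coe_set_eq] at h1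
  exact h1.trans (Nat.mul_le_mul_right _ hk)

theorem relIndex_ge [Finite G] [Finite E] {H : Subgroup G} {k : ℕ}
    (hk : Set.ncard {p : E × E | ∃ z ∈ Z, a p.1 * b p.2 * z ∈ H} ≤ k) :
    Nat.card E * Nat.card E * H.relIndex Z ≤ k * H.relIndex D.R := by
  have h1 := relIndex_mul_card H D.R
  have h2 := relIndex_mul_card H Z
  rw [D.card_R, ← h2] at h1
  have h3 := D.card_inf_le hk
  have h4 : 0 < Nat.card (H ⊓ Z : Subgroup G) := Nat.card_pos
  apply Nat.le_of_mul_le_mul_right _ h4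
  calc Nat.card E * Nat.card E * H.relIndex Z * Nat.card (H ⊓ Z : Subgroup G) =
      Nat.card E * Nat.card E * (H.relIndex Z * Nat.card (H ⊓ Z : Subgroup G)) := by ring
    _ = H.relIndex D.R * Nat.card (H ⊓ D.R : Subgroup G) := h1.symm
    _ ≤ H.relIndex D.R * (k * Nat.card (H ⊓ Z : Subgroup G)) := Nat.mul_le_mul_left _ h3
    _ = _ := by ring

/-- the conditions on `λ`: an element of order `7` of a field with `8` elements -/
structure Lam (c : E) : Prop where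
  two : (2 : E) = 0
  cub : c ^ 3 = c + 1
  gen : ∀ u : E, u ≠ 0 → ∃ i : ℕ, u = c ^ i

omit D in
theorem Lam.ne_zero (L : Lam c) : c ≠ 0 := by
  intro h
  have := L.cub
  rw [h, zero_pow three_ne_zero, zero_add] at this
  exact one_ne_zero this.symm

omit D in
theorem Lam.ne_one (L : Lam c) : c ≠ 1 := by
  intro h
  have := L.cub
  rw [h, one_pow, one_add_one_eq_two, L.two] at this
  exact one_ne_zero this

theorem conj_a {H : Subgroup G} (hx : x ∈ H) {s : E} (h : a s ∈ H) (i : ℕ) : a (c ^ i * s) ∈ H := by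
  induction i with
  | zero => rwa [pow_zero, one_mul]
  | succ i ih =>
    rw [pow_succ', mul_assoc, ← D.xa]
    exact mul_mem (mul_mem hx ih) (inv_mem hx)

theorem conj_b {H : Subgroup G} (hx : x ∈ H) {s : E} (h : b s ∈ H) (i : ℕ) : b (c⁻¹ ^ i * s) ∈ H := by
  induction i with
  | zero => rwa [pow_zero, one_mul]
  | succ i ih =>
    rw [pow_succ', mul_assoc, ← D.xb]
    exact mul_mem (mul_mem hx ih) (inv_mem hx)

theorem all_a (L : Lam c) {H : Subgroup G} (hx : x ∈ H) {s : E} (hs : s ≠ 0) {z : G} (hz : z ∈ Z)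
    (h : a s * b 0 * z ∈ H) : ∀ u, a u ∈ H := by
  rw [D.b_zero, mul_one] at h
  have h1 : a ((c - 1) * s) ∈ H := by
    have h2 : x * (a s * z) * x⁻¹ * (a s * z)⁻¹ ∈ H :=
      mul_mem (mul_mem (mul_mem hx h) (inv_mem hx)) (inv_mem h)
    have h3 : x * (a s * z) * x⁻¹ * (a s * z)⁻¹ = a ((c - 1) * s) := by
      have e1 : x * z * x⁻¹ = z := by rw [D.xz z hz, mul_inv_cancel_right]
      calc x * (a s * z) * x⁻¹ * (a s * z)⁻¹ = (x * a s * x⁻¹) * (x * z * x⁻¹) * z⁻¹ * (a s)⁻¹ := by group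
        _ = a (c * s) * a (-s) := by rw [e1, D.xa, D.a_neg]; group
        _ = _ := by rw [← D.a_add]; congr 1; ring
    rwa [h3] at h2
  have hcs : (c - 1) * s ≠ 0 := mul_ne_zero (sub_ne_zero.2 L.ne_one) hs
  intro u
  by_cases hu : u = 0
  · rw [hu, D.a_zero]; exact one_mem _
  · obtain ⟨i, hi⟩ := L.gen (u / ((c - 1) * s)) (div_ne_zero hu hcs)
    have h4 : u = c ^ i * ((c - 1) * s) := by rw [← hi, div_mul_cancel₀ _ hcs]
    rw [h4]
    exact D.conj_a hx h1 i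

theorem all_b (L : Lam c) {H : Subgroup G} (hx : x ∈ H) {s : E} (hs : s ≠ 0) {z : G} (hz : z ∈ Z)
    (h : a 0 * b s * z ∈ H) : ∀ u, b u ∈ H := by
  rw [D.a_zero, one_mul] at h
  have h1 : b ((c⁻¹ - 1) * s) ∈ H := by
    have h2 : x * (b s * z) * x⁻¹ * (b s * z)⁻¹ ∈ H :=
      mul_mem (mul_mem (mul_mem hx h) (inv_mem hx)) (inv_mem h)
    have h3 : x * (b s * z) * x⁻¹ * (b s * z)⁻¹ = b ((c⁻¹ - 1) * s) := by
      have e1 : x * z * x⁻¹ = z := by rw [D.xz z hz, mul_inv_cancel_right]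
      calc x * (b s * z) * x⁻¹ * (b s * z)⁻¹ = (x * b s * x⁻¹) * (x * z * x⁻¹) * z⁻¹ * (b s)⁻¹ := by group
        _ = b (c⁻¹ * s) * b (-s) := by rw [e1, D.xb, D.b_neg]; group
        _ = _ := by rw [← D.b_add]; congr 1; ring
    rwa [h3] at h2
  have hcs : (c⁻¹ - 1) * s ≠ 0 := mul_ne_zero (sub_ne_zero.2 fun h => L.ne_one (inv_eq_one.1 h)) hs
  intro u
  by_cases hu : u = 0
  · rw [hu, D.b_zero]; exact one_mem _
  · obtain ⟨i, hi⟩ := L.gen (u / ((c⁻¹ - 1) * s))⁻¹ (inv_ne_zero (div_ne_zero hu hcs))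
    have h4 : u = c⁻¹ ^ i * ((c⁻¹ - 1) * s) := by
      rw [inv_pow, ← hi, inv_inv, div_mul_cancel₀ _ hcs]
    rw [h4]
    exact D.conj_b hx h1 i

/-- if neither `A` nor `B` is contained in `H` then `H ∩ R ≤ Z` -/
theorem none (L : Lam c) {H : Subgroup G} (hx : x ∈ H) (hA : ¬ ∀ u, a u ∈ H) (hB : ¬ ∀ u, b u ∈ H)
    {s t : E} {z : G} (hz : z ∈ Z) (h : a s * b t * z ∈ H) : s = 0 ∧ t = 0 := by
  by_cases ht : t = 0
  · subst ht
    refine ⟨?_, rfl⟩
    by_contra hs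
    exact hA (D.all_a L hx hs hz h)
  · exfalso
    -- the element `g g^x g^{x^3}`
    have k1 : ∀ i : ℕ, a (c ^ i * s) * b (c⁻¹ ^ i * t) * z ∈ H := by
      intro i
      induction i with
      | zero => rwa [pow_zero, one_mul, pow_zero, one_mul]
      | succ i ih =>
        have e := D.x_form (c ^ i * s) (c⁻¹ ^ i * t) hz
        have e1 : c ^ (i + 1) * s = c * (c ^ i * s) := by rw [pow_succ']; ring
        have e2 : c⁻¹ ^ (i + 1) * t = c⁻¹ * (c⁻¹ ^ i * t) := by rw [pow_succ']; ring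
        rw [e1, e2, ← e]
        exact mul_mem (mul_mem hx ih) (inv_mem hx)
    have k0 := k1 0
    have k2 := k1 1
    have k3 := k1 3
    obtain ⟨w, hw, e⟩ := D.mul_form (c ^ 0 * s) (c⁻¹ ^ 0 * t) (c ^ 1 * s) (c⁻¹ ^ 1 * t) hz hz
    obtain ⟨w', hw', e'⟩ := D.mul_form (c ^ 0 * s + c ^ 1 * s) (c⁻¹ ^ 0 * t + c⁻¹ ^ 1 * t)
      (c ^ 3 * s) (c⁻¹ ^ 3 * t) hw hz
    have h1 := mul_mem (mul_mem k0 k2) k3
    rw [e, e'] at h1
    have hs0 : c ^ 0 * s + c ^ 1 * s + c ^ 3 * s = 0 := by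
      rw [L.cub]
      linear_combination (s * (c + 1)) * L.two
    have hc0 := L.ne_zero
    have ht0 : c⁻¹ ^ 0 * t + c⁻¹ ^ 1 * t + c⁻¹ ^ 3 * t = c⁻¹ * (1 + c⁻¹) * t := by
      have e3 : c⁻¹ ^ 3 = 1 + c⁻¹ ^ 2 := by
        have h5 : c ^ 3 * c⁻¹ ^ 3 = 1 := by rw [← mul_pow, mul_inv_cancel₀ hc0, one_pow]
        have h6 : c * c⁻¹ = 1 := mul_inv_cancel₀ hc0
        rw [L.cub] at h5
        have h8 : c * c⁻¹ ^ 3 = c⁻¹ ^ 2 := by
          calc c * c⁻¹ ^ 3 = (c * c⁻¹) * c⁻¹ ^ 2 := by ring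
            _ = _ := by rw [h6, one_mul]
        have h7 : c⁻¹ ^ 2 + c⁻¹ ^ 3 = 1 := by
          rw [← h8]
          linear_combination h5
        linear_combination h7 - c⁻¹ ^ 2 * L.two
      rw [e3]
      linear_combination t * L.two
    rw [hs0, ht0] at h1
    refine hB (D.all_b L hx ?_ hw' h1)
    refine mul_ne_zero (mul_ne_zero (inv_ne_zero hc0) ?_) ht
    intro h5
    apply L.ne_one
    have h6 : c⁻¹ = 1 := by linear_combination h5 - L.two
    exact inv_eq_one.1 h6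

theorem h64 [Finite G] (L : Lam c) (hE : Nat.card E = 8) {H : Subgroup G} (hx : x ∈ H)
    (hA : ¬ ∀ u, a u ∈ H) (hB : ¬ ∀ u, b u ∈ H) : 64 * H.relIndex Z ≤ H.relIndex D.R := by
  have : Finite E := (Nat.card_pos_iff.1 (by omega)).2
  have h1 := D.relIndex_ge (H := H) (k := 1) (by
    have : {p : E × E | ∃ z ∈ Z, a p.1 * b p.2 * z ∈ H} ⊆ {((0 : E), (0 : E))} := by
      rintro ⟨s, t⟩ ⟨z, hz, h⟩
      obtain ⟨h1, h2⟩ := D.none L hx hA hB hz h
      have h1' : s = 0 := h1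
      have h2' : t = 0 := h2
      rw [Set.mem_singleton_iff, h1', h2']
    exact (Set.ncard_le_ncard this).trans (Set.ncard_singleton _).le)
  rw [hE] at h1
  omega

theorem h8 [Finite G] (L : Lam c) (hE : Nat.card E = 8) {H : Subgroup G} (hx : x ∈ H)
    (hAB : (¬ ∀ u, a u ∈ H) ∨ (¬ ∀ u, b u ∈ H)) : 8 * H.relIndex Z ≤ H.relIndex D.R := by
  have : Finite E := (Nat.card_pos_iff.1 (by omega)).2
  by_cases hA : ∀ u, a u ∈ H
  · have hB : ¬ ∀ u, b u ∈ H := hAB.resolve_left (not_not.2 hA)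
    have h1 := D.relIndex_ge (H := H) (k := 8) (by
      have : {p : E × E | ∃ z ∈ Z, a p.1 * b p.2 * z ∈ H} ⊆ Set.range (fun s : E => (s, (0 : E))) := by
        rintro ⟨s, t⟩ ⟨z, hz, h⟩
        refine ⟨s, ?_⟩
        have ht : t = 0 := by
          by_contra ht
          apply hB
          refine D.all_b L hx ht hz ?_
          have h2 := mul_mem (inv_mem (hA s)) h
          have e : (a s)⁻¹ * (a s * b t * z) = a 0 * b t * z := by rw [D.a_zero]; group
          rwa [e] at h2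
        rw [ht]
      refine (Set.ncard_le_ncard this).trans ?_
      rw [← Set.image_univ]
      refine (Set.ncard_image_le).trans ?_
      rw [Set.ncard_univ, hE])
    rw [hE] at h1
    omega
  · by_cases hB : ∀ u, b u ∈ H
    · have h1 := D.relIndex_ge (H := H) (k := 8) (by
        have : {p : E × E | ∃ z ∈ Z, a p.1 * b p.2 * z ∈ H} ⊆ Set.range (fun s : E => ((0 : E), s)) := by
          rintro ⟨s, t⟩ ⟨z, hz, h⟩
          refine ⟨t, ?_⟩
          have hs : s = 0 := by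
            by_contra hs
            apply hA
            have h2 : a s * b t * z * (b t)⁻¹ ∈ H := mul_mem h (inv_mem (hB t))
            have e : a s * b t * z * (b t)⁻¹ = a s * b 0 * z := by
              rw [mul_assoc (a s * b t), ← D.b_neg, D.zb z hz, D.b_neg, D.b_zero]
              group
            rw [e] at h2
            exact D.all_a L hx hs hz h2
          rw [hs]
        refine (Set.ncard_le_ncard this).trans ?_
        rw [← Set.image_univ]
        refine (Set.ncard_image_le).trans ?_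
        rw [Set.ncard_univ, hE])
      rw [hE] at h1
      omega
    · have := D.h64 L hE hx hA hB
      omega

end D7

end Cfsg.Agent.H448.FprMers
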