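import Cfsg.Agent.H448.FprMers.Wt

/-!
# The group `2^{1+6}` with an element of order `7`
-/

set_option autoImplicit false
open Subgroup MulAction

namespace Cfsg.Agent.H448.FprMers

open Cfsg.Agent.H398.FPR Cfsg.Agent.H452.FprHeis

variable {E : Type*} [Field E] {G : Type*} [Group G]

/-- `A = a(E)`, `B = b(E)`, `[A, B] ≤ Z`, `x` acts on `A` by `λ` and on `B` by `λ⁻¹`. -/
structure D7 (x : G) (a b : E → G) (Z : Subgroup G) (c : E) : Prop where
  a_add : ∀ s t, a (s + t) = a s * a t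
  b_add : ∀ s t, b (s + t) = b s * b t
  comm : ∀ s t, ∃ z ∈ Z, b t * a s = a s * b t * z
  nza : ∀ s, s ≠ 0 → ∃ t, a s * b t ≠ b t * a s
  nzb : ∀ t, t ≠ 0 → ∃ s, a s * b t ≠ b t * a s
  za : ∀ z ∈ Z, ∀ s, z * a s = a s * z
  zb : ∀ z ∈ Z, ∀ s, z * b s = b s * z
  zz : ∀ z ∈ Z, ∀ w ∈ Z, z * w = w * z
  xa : ∀ s, x * a s * x⁻¹ = a (c * s)
  xb : ∀ s, x * b s * x⁻¹ = b (c⁻¹ * s)
  xz : ∀ z ∈ Z, x * z = z * x

variable {x : G} {a b : E → G} {Z : Subgroup G} {c : E}

namespace D7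

variable (D : D7 x a b Z c)

include D

theorem a_zero : a 0 = 1 := by
  have := D.a_add 0 0
  rw [add_zero] at this
  exact left_eq_mul.1 this

theorem b_zero : b 0 = 1 := by
  have := D.b_add 0 0
  rw [add_zero] at this
  exact left_eq_mul.1 this

theorem a_comm (s t : E) : a s * a t = a t * a s := by rw [← D.a_add, ← D.a_add, add_comm]
theorem b_comm (s t : E) : b s * b t = b t * b s := by rw [← D.b_add, ← D.b_add, add_comm]

theorem a_neg (s : E) : a (-s) = (a s)⁻¹ := by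
  apply eq_inv_of_mul_eq_one_left
  rw [← D.a_add, neg_add_cancel, D.a_zero]

theorem b_neg (s : E) : b (-s) = (b s)⁻¹ := by
  apply eq_inv_of_mul_eq_one_left
  rw [← D.b_add, neg_add_cancel, D.b_zero]

theorem mul_form (s t s' t' : E) {z z' : G} (hz : z ∈ Z) (hz' : z' ∈ Z) :
    ∃ w ∈ Z, a s * b t * z * (a s' * b t' * z') = a (s + s') * b (t + t') * w := by
  obtain ⟨w, hw, h⟩ := D.comm s' t
  refine ⟨w * z * z', mul_mem (mul_mem hw hz) hz', ?_⟩
  rw [D.a_add, D.b_add]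
  calc a s * b t * z * (a s' * b t' * z') = a s * b t * (z * a s') * (b t' * z') := by group
    _ = a s * (b t * a s') * (z * b t') * z' := by rw [D.za z hz]; group
    _ = a s * a s' * b t * (w * b t') * z * z' := by rw [h, D.zb z hz]; group
    _ = a s * a s' * (b t * b t') * (w * z * z') := by rw [D.zb w hw]; group

/-- the group `R = A B Z` -/
def R : Subgroup G where
  carrier := {g | ∃ s t, ∃ z ∈ Z, g = a s * b t * z}
  one_mem' := ⟨0, 0, 1, one_mem _, by rw [D.a_zero, D.b_zero, mul_one, mul_one]⟩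
  mul_mem' := by
    rintro _ _ ⟨s, t, z, hz, rfl⟩ ⟨s', t', z', hz', rfl⟩
    obtain ⟨w, hw, h⟩ := D.mul_form s t s' t' hz hz'
    exact ⟨_, _, w, hw, h⟩
  inv_mem' := by
    rintro _ ⟨s, t, z, hz, rfl⟩
    obtain ⟨w, hw, h⟩ := D.comm (-s) (-t)
    refine ⟨-s, -t, w * z⁻¹, mul_mem hw (inv_mem hz), ?_⟩
    have h2 : (b t)⁻¹ * (a s)⁻¹ = a (-s) * b (-t) * w := by rw [← h, D.a_neg, D.b_neg]
    calc (a s * b t * z)⁻¹ = z⁻¹ * ((b t)⁻¹ * (a s)⁻¹) := by group
      _ = (z⁻¹ * a (-s)) * b (-t) * w := by rw [h2]; group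
      _ = a (-s) * (z⁻¹ * b (-t)) * w := by rw [D.za _ (inv_mem hz)]; group
      _ = a (-s) * b (-t) * (z⁻¹ * w) := by rw [D.zb _ (inv_mem hz)]; group
      _ = _ := by rw [D.zz _ (inv_mem hz) w hw]

theorem mem_R {g : G} : g ∈ D.R ↔ ∃ s t, ∃ z ∈ Z, g = a s * b t * z := Iff.rfl

theorem a_mem (s : E) : a s ∈ D.R := ⟨s, 0, 1, one_mem _, by rw [D.b_zero, mul_one, mul_one]⟩
theorem b_mem (s : E) : b s ∈ D.R := ⟨0, s, 1, one_mem _, by rw [D.a_zero, one_mul, mul_one]⟩
theorem z_le : Z ≤ D.R := fun z hz => ⟨0, 0, z, hz, by rw [D.a_zero, D.b_zero, one_mul, one_mul]⟩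

/-- uniqueness -/
theorem uniq {s t : E} (h : a s * b t ∈ Z) : s = 0 ∧ t = 0 := by
  constructor
  · by_contra hs
    obtain ⟨t', ht'⟩ := D.nza s hs
    apply ht'
    have h1 := D.zb _ h t'
    have h2 : a s * b t' * b t = b t' * a s * b t := by
      calc a s * b t' * b t = a s * b t * b t' := by rw [mul_assoc, D.b_comm, ← mul_assoc]
        _ = _ := by rw [h1]; group
    exact mul_right_cancel h2
  · by_contra ht
    obtain ⟨s', hs'⟩ := D.nzb t ht
    apply hs'
    have h1 := D.za _ h s'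
    have h2 : a s * (a s' * b t) = a s * (b t * a s') := by
      calc a s * (a s' * b t) = a s' * (a s * b t) := by rw [← mul_assoc, D.a_comm, mul_assoc]
        _ = _ := by rw [← h1]; group
    exact mul_left_cancel h2

theorem uniq2 {s t s' t' : E} {z z' : G} (hz : z ∈ Z) (hz' : z' ∈ Z)
    (h : a s * b t * z = a s' * b t' * z') : s = s' ∧ t = t' := by
  obtain ⟨w, hw, h1⟩ := D.mul_form s' t' (s - s') (t - t') hz' (one_mem Z)
  have e1 : s' + (s - s') = s := by ring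
  have e2 : t' + (t - t') = t := by ring
  rw [e1, e2, mul_one] at h1
  have h2 : a (s - s') * b (t - t') ∈ Z := by
    have h3 : a (s - s') * b (t - t') = z⁻¹ * w := by
      have h4 : a s * b t = a s' * b t' * z' * z⁻¹ := by rw [← h]; group
      rw [h4] at h1
      have h5 : (a s' * b t' * z') * (a (s - s') * b (t - t')) = (a s' * b t' * z') * (z⁻¹ * w) := by
        rw [h1]; group
      exact mul_left_cancel h5
    rw [h3]
    exact mul_mem (inv_mem hz) hw
  obtain ⟨h3, h4⟩ := D.uniq h2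
  exact ⟨sub_eq_zero.1 h3, sub_eq_zero.1 h4⟩

theorem x_form (s t : E) {z : G} (hz : z ∈ Z) :
    x * (a s * b t * z) * x⁻¹ = a (c * s) * b (c⁻¹ * t) * z := by
  have h1 : x * z * x⁻¹ = z := by rw [D.xz z hz, mul_inv_cancel_right]
  calc x * (a s * b t * z) * x⁻¹ = (x * a s * x⁻¹) * (x * b t * x⁻¹) * (x * z * x⁻¹) := by group
    _ = _ := by rw [D.xa, D.xb, h1]

theorem commRZ {g : G} (hg : g ∈ D.R) {z : G} (hz : z ∈ Z) : z * g = g * z := by
  obtain ⟨s, t, w, hw, rfl⟩ := hg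
  calc z * (a s * b t * w) = (z * a s) * b t * w := by group
    _ = a s * (z * b t) * w := by rw [D.za z hz]; group
    _ = a s * b t * (z * w) := by rw [D.zb z hz]; group
    _ = _ := by rw [D.zz z hz w hw]; group

theorem form_sub {s t s' t' : E} {z z' : G} (hz : z ∈ Z) (hz' : z' ∈ Z) (hs : s = s') (ht : t = t') :
    (a s * b t * z) * (a s' * b t' * z')⁻¹ ∈ Z := by
  subst hs ht
  have h1 : (a s * b t * z) * (a s * b t * z')⁻¹ = (a s * b t) * (z * z'⁻¹) * (a s * b t)⁻¹ := by group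
  rw [h1]
  have h2 := D.commRZ (g := a s * b t) (mul_mem (D.a_mem s) (D.b_mem t)) (mul_mem hz (inv_mem hz'))
  rw [← h2, mul_inv_cancel_right]
  exact mul_mem hz (inv_mem hz')

theorem heis [Finite G] (hc : c ≠ 1) (hc0 : c ≠ 0) : Heis x D.R Z where
  le := D.z_le
  cent := fun z hz g hg => D.commRZ hg hz
  der := by
    rintro _ ⟨s, t, z, hz, rfl⟩ _ ⟨s', t', z', hz', rfl⟩
    obtain ⟨w, hw, h⟩ := D.mul_form s t s' t' hz hz'
    obtain ⟨w', hw', h'⟩ := D.mul_form s' t' s t hz' hz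
    have e : (a s * b t * z) * (a s' * b t' * z') * (a s * b t * z)⁻¹ * (a s' * b t' * z')⁻¹ =
        ((a s * b t * z) * (a s' * b t' * z')) * ((a s' * b t' * z') * (a s * b t * z))⁻¹ := by group
    rw [e, h, h']
    exact D.form_sub hw hw' (add_comm _ _) (add_comm _ _)
  norm := by
    rw [mem_normalizer_iff]
    intro g
    constructor
    · rintro ⟨s, t, z, hz, rfl⟩
      exact ⟨_, _, z, hz, D.x_form s t hz⟩
    · rintro ⟨s, t, z, hz, h⟩
      refine ⟨c⁻¹ * s, c * t, z, hz, ?_⟩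
      have h1 := D.x_form (c⁻¹ * s) (c * t) hz
      rw [mul_inv_cancel_left₀ hc0, inv_mul_cancel_left₀ hc0, ← h] at h1
      have h2 := mul_right_cancel h1
      exact (mul_left_cancel h2).symm
  fixZ := D.xz
  free := by
    rintro _ ⟨s, t, z, hz, rfl⟩ h
    rw [D.x_form s t hz] at h
    have h1 : a (c * s) * b (c⁻¹ * t) * z = a s * b t * (z * ((a (c * s) * b (c⁻¹ * t) * z) * (a s * b t * z)⁻¹)) := by
      set w := (a (c * s) * b (c⁻¹ * t) * z) * (a s * b t * z)⁻¹ with hw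
      have h2 : a (c * s) * b (c⁻¹ * t) * z = w * (a s * b t * z) := by rw [hw]; group
      rw [h2, D.commRZ (g := a s * b t * z) ⟨s, t, z, hz, rfl⟩ h]
      group
    obtain ⟨h3, h4⟩ := D.uniq2 hz (mul_mem hz h) h1
    have hs : s = 0 := by
      have : (c - 1) * s = 0 := by rw [sub_mul, one_mul, h3, sub_self]
      exact (mul_eq_zero.1 this).resolve_left (sub_ne_zero.2 hc)
    have ht : t = 0 := by
      have : (c⁻¹ - 1) * t = 0 := by rw [sub_mul, one_mul, h4, sub_self]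
      refine (mul_eq_zero.1 this).resolve_left (sub_ne_zero.2 ?_)
      intro h5
      exact hc (inv_eq_one.1 h5)
    rw [hs, ht, D.a_zero, D.b_zero, one_mul, one_mul]
    exact hz

end D7

end Cfsg.Agent.H448.FprMers
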