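import Cfsg.Agent.H448.FprMers.Cnt7

/-!
# Six Heisenberg groups `2^{1+6}` in a hexagon
-/

set_option autoImplicit false
open Subgroup MulAction

namespace Cfsg.Agent.H448.FprMers

open Cfsg.Agent.H398.FPR Cfsg.Agent.H452.FprHeis

section conj

variable {E : Type*} [Field E] {G : Type*} [Group G]
variable {x : G} {a b : E → G} {Z : Subgroup G} {c : E}

theorem D7.conj (D : D7 x a b Z c) {g : G} (hg : g * x = x * g) :
    D7 x (fun s => g * a s * g⁻¹) (fun s => g * b s * g⁻¹) (Z.map (MulAut.conj g).toMonoidHom) c where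
  a_add := by intro s t; rw [D.a_add]; group
  b_add := by intro s t; rw [D.b_add]; group
  comm := by
    intro s t
    obtain ⟨z, hz, h⟩ := D.comm s t
    refine ⟨g * z * g⁻¹, ⟨z, hz, rfl⟩, ?_⟩
    calc g * b t * g⁻¹ * (g * a s * g⁻¹) = g * (b t * a s) * g⁻¹ := by group
      _ = _ := by rw [h]; group
  nza := by
    intro s hs
    obtain ⟨t, ht⟩ := D.nza s hs
    refine ⟨t, fun h => ht ?_⟩
    have h1 : g * (a s * b t) * g⁻¹ = g * (b t * a s) * g⁻¹ := by
      calc g * (a s * b t) * g⁻¹ = g * a s * g⁻¹ * (g * b t * g⁻¹) := by group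
        _ = _ := by rw [h]; group
    exact mul_left_cancel (mul_right_cancel h1)
  nzb := by
    intro t ht
    obtain ⟨s, hs⟩ := D.nzb t ht
    refine ⟨s, fun h => hs ?_⟩
    have h1 : g * (a s * b t) * g⁻¹ = g * (b t * a s) * g⁻¹ := by
      calc g * (a s * b t) * g⁻¹ = g * a s * g⁻¹ * (g * b t * g⁻¹) := by group
        _ = _ := by rw [h]; group
    exact mul_left_cancel (mul_right_cancel h1)
  za := by
    rintro _ ⟨z, hz, rfl⟩ s
    show g * z * g⁻¹ * (g * a s * g⁻¹) = g * a s * g⁻¹ * (g * z * g⁻¹)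
    calc g * z * g⁻¹ * (g * a s * g⁻¹) = g * (z * a s) * g⁻¹ := by group
      _ = _ := by rw [D.za z hz]; group
  zb := by
    rintro _ ⟨z, hz, rfl⟩ s
    show g * z * g⁻¹ * (g * b s * g⁻¹) = g * b s * g⁻¹ * (g * z * g⁻¹)
    calc g * z * g⁻¹ * (g * b s * g⁻¹) = g * (z * b s) * g⁻¹ := by group
      _ = _ := by rw [D.zb z hz]; group
  zz := by
    rintro _ ⟨z, hz, rfl⟩ _ ⟨w, hw, rfl⟩
    show g * z * g⁻¹ * (g * w * g⁻¹) = g * w * g⁻¹ * (g * z * g⁻¹)
    calc g * z * g⁻¹ * (g * w * g⁻¹) = g * (z * w) * g⁻¹ := by group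
      _ = _ := by rw [D.zz z hz w hw]; group
  xa := by
    intro s
    have h1 : g⁻¹ * x = x * g⁻¹ := by
      rw [inv_mul_eq_iff_eq_mul, ← mul_assoc, hg, mul_inv_cancel_right]
    calc x * (g * a s * g⁻¹) * x⁻¹ = (x * g) * a s * (x * g)⁻¹ := by group
      _ = g * (x * a s * x⁻¹) * g⁻¹ := by rw [← hg]; group
      _ = _ := by rw [D.xa]
  xb := by
    intro s
    calc x * (g * b s * g⁻¹) * x⁻¹ = (x * g) * b s * (x * g)⁻¹ := by group
      _ = g * (x * b s * x⁻¹) * g⁻¹ := by rw [← hg]; group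
      _ = _ := by rw [D.xb]
  xz := by
    rintro _ ⟨z, hz, rfl⟩
    show x * (g * z * g⁻¹) = g * z * g⁻¹ * x
    have h1 : g⁻¹ * x = x * g⁻¹ := by
      rw [inv_mul_eq_iff_eq_mul, ← mul_assoc, hg, mul_inv_cancel_right]
    calc x * (g * z * g⁻¹) = (x * g) * z * g⁻¹ := by group
      _ = g * (x * z) * g⁻¹ := by rw [← hg]; group
      _ = g * z * (x * g⁻¹) := by rw [D.xz z hz]; group
      _ = _ := by rw [← h1]; group

end conj

def edA : Fin 6 → Fin 6 := ![0, 4, 2, 2, 0, 4]
def edB : Fin 6 → Fin 6 := ![1, 3, 1, 3, 5, 5]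

/-- the weight of an edge -/
def wE (T : Fin 6 → Bool) (e : Fin 6) : ℕ :=
  if T (edA e) && T (edB e) then 1 else if T (edA e) || T (edB e) then 8 else 64

theorem comb : ∀ T : Fin 6 → Bool, (∀ i, T i = true → T (i + 3) = true → ∀ j, T j = true →
    T (2 * i + 3 - j) = true) → (¬ ∀ i, T i = true) → 8 * 6 ≤ ∑ e, wE T e := by
  decide +kernel

/-- **Six Heisenberg groups in a hexagon.** -/
theorem six_uGood {E : Type*} [Field E] {G : Type*} [Group G] [Finite G] {x : G} {c : E} (L : D7.Lam c)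
    (hE : Nat.card E = 8) (a b : Fin 6 → E → G) (Z : Fin 6 → Subgroup G)
    (D : ∀ i, D7 x (a i) (b i) (Z i) c) (S : Fin 6 → Subgroup G)
    (ha : ∀ e (H : Subgroup G), (∀ u, a e u ∈ H) ↔ S (edA e) ≤ H)
    (hb : ∀ e (H : Subgroup G), (∀ u, b e u ∈ H) ↔ S (edB e) ≤ H)
    (hcl : ∀ (H : Subgroup G) (i : Fin 6), S i ≤ H → S (i + 3) ≤ H → ∀ j, S j ≤ H → S (2 * i + 3 - j) ≤ H)
    (htop : ∀ H : Subgroup G, (∀ i, S i ≤ H) → H = ⊤) : UGood 1 8 x := by
  classical
  refine multi_uGood (ι := Fin 6) (fun i => (D i).R) Z (fun i => (D i).heis L.ne_one L.ne_zero) ?_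
  intro H hH hx
  obtain ⟨T, hT⟩ : ∃ T : Fin 6 → Bool, ∀ i, T i = true ↔ S i ≤ H :=
    ⟨fun i => decide (S i ≤ H), fun i => by simp⟩
  refine ⟨wE T, ?_, ?_⟩
  · intro e
    have h1 := (D e).h8 L hE hx
    have h2 := (D e).h64 L hE hx
    rw [ha e H, hb e H, ← hT, ← hT] at h1 h2
    unfold wE
    by_cases k1 : T (edA e) = true
    · by_cases k2 : T (edB e) = true
      · rw [k1, k2]
        simp only [Bool.and_self, if_true, one_mul]
        have h3 : (Z e) ≤ (D e).R := (D e).z_le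
        exact relIndex_le_of_le_right h3 (by
          have h4 := relIndex_mul_card H (D e).R
          intro h5
          rw [h5, zero_mul] at h4
          exact Nat.card_pos.ne h4)
      · have k2' : T (edB e) = false := by simpa using k2
        rw [k1, k2']
        simp only [Bool.and_false, Bool.or_false, if_true, if_false, Bool.false_eq_true]
        exact h1 (Or.inr k2)
    · have k1' : T (edA e) = false := by simpa using k1
      by_cases k2 : T (edB e) = true
      · rw [k1', k2]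
        simp only [Bool.and_true, Bool.or_true, if_true, if_false, Bool.false_eq_true]
        exact h1 (Or.inl k1)
      · have k2' : T (edB e) = false := by simpa using k2
        rw [k1', k2']
        simp only [Bool.and_false, Bool.or_false, if_false, Bool.false_eq_true]
        exact h2 k1 k2
  · rw [Fintype.card_fin]
    apply comb T
    · intro i h1 h2 j h3
      rw [hT] at h1 h2 h3 ⊢
      exact hcl H i h1 h2 j h3
    · intro h
      exact hH (htop H fun i => (hT i).1 (h i))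

end Cfsg.Agent.H448.FprMers
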