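import Cfsg.Agent.H452.FprHeis
import Cfsg.Agent.H398.FPR.Free

/-!
# Several Heisenberg radicals: the weighted count of the fixed points
-/

set_option autoImplicit false
open Subgroup MulAction

namespace Cfsg.Agent.H448.FprMers

open Cfsg.Agent.H398.FPR Cfsg.Agent.H452.FprHeis

theorem wt_ge {G X : Type*} [Group G] [MulAction G X] [Finite G] [Finite X] {R Z : Subgroup G}
    {ω : X} {w : ℕ} (hw : w * (stabilizer G ω).relIndex Z ≤ (stabilizer G ω).relIndex R) :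
    (w : ℚ) ≤ wt R Z ω := by
  rw [wt, le_div_iff₀ (by exact_mod_cast orbit_ncard_pos Z ω), ncard_orbit_eq, ncard_orbit_eq]
  exact_mod_cast hw

/-- **The weighted count.** -/
theorem multi_uGood {G : Type*} [Group G] [Finite G] {ι : Type*} [Fintype ι] [Nonempty ι] {x : G}
    {M : ℕ} (R Z : ι → Subgroup G) (h : ∀ i, Heis x (R i) (Z i))
    (hw : ∀ H : Subgroup G, H ≠ ⊤ → x ∈ H → ∃ w : ι → ℕ,
      (∀ i, w i * H.relIndex (Z i) ≤ H.relIndex (R i)) ∧ M * Fintype.card ι ≤ ∑ i, w i) :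
    UGood 1 M x := by
  classical
  intro H hH
  have := Fintype.ofFinite (G ⧸ H)
  have h1 : ∑ i : ι, ∑ ω ∈ Finset.univ.filter (fun ω : G ⧸ H => x • ω = ω), wt (R i) (Z i) ω ≤
      ∑ _i : ι, (Fintype.card (G ⧸ H) : ℚ) :=
    Finset.sum_le_sum fun i _ => (h i).sum_wt (X := G ⧸ H)
  rw [Finset.sum_comm, Finset.sum_const, nsmul_eq_mul] at h1
  have h2 : ∑ ω ∈ Finset.univ.filter (fun ω : G ⧸ H => x • ω = ω), ((M * Fintype.card ι : ℕ) : ℚ) ≤
      ∑ ω ∈ Finset.univ.filter (fun ω : G ⧸ H => x • ω = ω), ∑ i : ι, wt (R i) (Z i) ω := by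
    apply Finset.sum_le_sum
    intro ω hω
    have hxω : x • ω = ω := (Finset.mem_filter.1 hω).2
    obtain ⟨w, hw1, hw2⟩ := hw (stabilizer G ω) (stabilizer_ne_top' hH ω) hxω
    calc ((M * Fintype.card ι : ℕ) : ℚ) ≤ ((∑ i, w i : ℕ) : ℚ) := by exact_mod_cast hw2
      _ = ∑ i, (w i : ℚ) := by push_cast; rfl
      _ ≤ _ := Finset.sum_le_sum fun i _ => wt_ge (hw1 i)
  rw [Finset.sum_const, nsmul_eq_mul] at h2
  have h4 : (Finset.univ.filter (fun ω : G ⧸ H => x • ω = ω)).card =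
      Nat.card (fixedBy (G ⧸ H) x) := by
    rw [Nat.card_coe_set_eq, Set.ncard_eq_toFinset_card']
    congr 1
    ext y
    simp [mem_fixedBy]
  rw [h4] at h2
  have h5 := h2.trans h1
  rw [Finset.card_univ, ← Nat.card_eq_fintype_card (α := G ⧸ H)] at h5
  have h6 : Nat.card (fixedBy (G ⧸ H) x) * (M * Fintype.card ι) ≤ Fintype.card ι * Nat.card (G ⧸ H) := by
    exact_mod_cast h5
  have h7 : 0 < Fintype.card ι := Fintype.card_pos
  apply Nat.le_of_mul_le_mul_left _ h7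
  calc Fintype.card ι * (M * Nat.card (fixedBy (G ⧸ H) x)) =
      Nat.card (fixedBy (G ⧸ H) x) * (M * Fintype.card ι) := by ring
    _ ≤ _ := h6
    _ = _ := by ring

end Cfsg.Agent.H448.FprMers
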